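import Mathlib
import Cfsg.Agent.Lib.LocEven.Basic
import Cfsg.Agent.Lib.Core.GrpBasic

/-! # Composition length through subnormal chains (helper57) -/

set_option autoImplicit false

namespace H57.CL
open Subgroup H68
open scoped ArithmeticFunction.Omega

variable {G : Type*} [Group G] {G' : Type*} [Group G']

/-- a strictly ascending chain from `⊥` to `B`, each term normal in the next -/
inductive Ch : Subgroup G → ℕ → Prop
  | bot : Ch ⊥ 0
  | step {A B : Subgroup G} {l : ℕ} : Ch A l → A < B → B ≤ normalizer (A : Set G) → Ch B (l + 1)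

theorem relIndex_ne_zero' [Finite G] (A B : Subgroup G) : A.relIndex B ≠ 0 :=
  index_ne_zero_of_finite

theorem cardFactors_lt [Finite G] {A B : Subgroup G} (h : A < B) :
    Ω (Nat.card A) + 1 ≤ Ω (Nat.card B) := by
  rw [← H1.card_mul_relIndex_of_le h.le, ArithmeticFunction.cardFactors_mul Nat.card_pos.ne'
    (relIndex_ne_zero' _ _)]
  have : 1 < A.relIndex B := one_lt_index_of_ne_top fun e => h.not_ge (subgroupOf_eq_top.mp e)
  have := ArithmeticFunction.cardFactors_pos_iff_one_lt.mpr this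
  omega

theorem Ch.le_cardFactors [Finite G] {B : Subgroup G} {l : ℕ} (h : Ch B l) :
    l ≤ Ω (Nat.card B) := by
  induction h with
  | bot => exact Nat.zero_le _
  | step _ h2 _ ih => exact (Nat.succ_le_succ ih).trans (cardFactors_lt h2)

theorem two_pow_cardFactors_le {m : ℕ} (hm : m ≠ 0) : 2 ^ Ω m ≤ m := by
  conv_rhs => rw [← Nat.prod_primeFactorsList hm]
  exact List.pow_card_le_prod _ _ fun x hx => (Nat.prime_of_mem_primeFactorsList hx).two_le

theorem exists_ch (B : Subgroup G) : ∃ l, Ch B l := by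
  by_cases h : B = ⊥
  · exact ⟨0, h ▸ Ch.bot⟩
  · exact ⟨1, Ch.bot.step (bot_lt_iff_ne_bot.mpr h) le_normalizer_of_normal⟩

/-- the composition length of `B` -/
noncomputable def clen (B : Subgroup G) : ℕ := sSup {l | Ch B l}

theorem Ch.le_clen [Finite G] {B : Subgroup G} {l : ℕ} (h : Ch B l) : l ≤ clen B :=
  le_csSup ⟨_, fun _ h => Ch.le_cardFactors h⟩ h

theorem ch_clen [Finite G] (B : Subgroup G) : Ch B (clen B) :=
  Nat.sSup_mem (exists_ch B) ⟨_, fun _ h => Ch.le_cardFactors h⟩

theorem clen_le_cardFactors [Finite G] (B : Subgroup G) : clen B ≤ Ω (Nat.card B) :=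
  (ch_clen B).le_cardFactors

theorem two_pow_clen_le [Finite G] (B : Subgroup G) : 2 ^ clen B ≤ Nat.card B :=
  (Nat.pow_le_pow_right two_pos (clen_le_cardFactors B)).trans
    (two_pow_cardFactors_le Nat.card_pos.ne')

theorem clen_lt [Finite G] {A B : Subgroup G} (h : A < B) (hn : B ≤ normalizer (A : Set G)) :
    clen A + 1 ≤ clen B := ((ch_clen A).step h hn).le_clen

theorem clen_le [Finite G] {A B : Subgroup G} (h : A ≤ B) (hn : B ≤ normalizer (A : Set G)) :
    clen A ≤ clen B := by
  rcases h.lt_or_eq with h | h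
  · exact (Nat.le_succ _).trans (clen_lt h hn)
  · rw [h]

theorem Ch.split {B : Subgroup G} {l : ℕ} (h : Ch B l) (f : G →* G') :
    ∃ l₁ l₂, l ≤ l₁ + l₂ ∧ Ch (f.ker ⊓ B) l₁ ∧ Ch (B.map f) l₂ := by
  induction h with
  | bot => exact ⟨0, 0, le_rfl, by rw [inf_bot_eq]; exact Ch.bot, by rw [Subgroup.map_bot]; exact Ch.bot⟩
  | @step A B l _ h2 h3 ih =>
    obtain ⟨l₁, l₂, h4, h5, h6⟩ := ih
    have n1 : f.ker ⊓ B ≤ normalizer ((f.ker ⊓ A : Subgroup G) : Set G) :=
      (le_inf le_normalizer_of_normal (inf_le_right.trans h3)).trans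
        inf_normalizer_le_normalizer_inf
    have n2 : B.map f ≤ normalizer ((A.map f : Subgroup G') : Set G') :=
      (map_mono h3).trans (le_normalizer_map f)
    rcases (inf_le_inf_left f.ker h2.le).lt_or_eq with e1 | e1 <;>
      rcases (map_mono (f := f) h2.le).lt_or_eq with e2 | e2
    · exact ⟨l₁ + 1, l₂ + 1, by omega, h5.step e1 n1, h6.step e2 n2⟩
    · exact ⟨l₁ + 1, l₂, by omega, h5.step e1 n1, e2 ▸ h6⟩
    · exact ⟨l₁, l₂ + 1, by omega, e1 ▸ h5, h6.step e2 n2⟩
    · refine absurd (fun b hb => ?_) h2.not_ge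
      obtain ⟨a, ha, e⟩ := e2.ge (mem_map_of_mem f hb)
      have : a⁻¹ * b ∈ f.ker ⊓ B := mem_inf.mpr ⟨by
        rw [MonoidHom.mem_ker, map_mul, map_inv, e, inv_mul_cancel],
        mul_mem (inv_mem (h2.le ha)) hb⟩
      exact (mul_mem_cancel_left (inv_mem ha)).mp (e1.ge this).2

theorem Ch.lift {B : Subgroup G} (f : G →* G') {l₁ : ℕ} (h1 : Ch (f.ker ⊓ B) l₁) {D : Subgroup G'}
    {l₂ : ℕ} (h2 : Ch D l₂) (hD : D ≤ B.map f) : Ch (D.comap f ⊓ B) (l₁ + l₂) := by
  induction h2 with
  | bot => exact h1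
  | @step A D l _ h4 h5 ih =>
    refine (ih (h4.le.trans hD)).step (lt_of_le_of_ne (inf_le_inf_right _ (comap_mono h4.le))
      fun e => h4.not_ge fun d hd => ?_) ?_
    · obtain ⟨b, hb, rfl⟩ := hD hd
      exact (e.ge ⟨hd, hb⟩).1
    · exact (le_inf (inf_le_left.trans ((comap_mono h5).trans (le_normalizer_comap f)))
        (inf_le_right.trans le_normalizer)).trans inf_normalizer_le_normalizer_inf

theorem clen_eq_add [Finite G] [Finite G'] (B : Subgroup G) (f : G →* G') :
    clen B = clen (f.ker ⊓ B) + clen (B.map f) := by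
  refine le_antisymm ?_ ?_
  · obtain ⟨l₁, l₂, h1, h2, h3⟩ := (ch_clen B).split f
    exact h1.trans (Nat.add_le_add h2.le_clen h3.le_clen)
  · have := (ch_clen _).lift f (ch_clen (B.map f)) le_rfl
    rw [inf_eq_right.mpr (le_comap_map f B)] at this
    exact this.le_clen

theorem clen_bot [Finite G] : clen (⊥ : Subgroup G) = 0 := by
  have := clen_le_cardFactors (⊥ : Subgroup G)
  simpa using this

theorem clen_map_of_inf [Finite G] [Finite G'] {B : Subgroup G} {f : G →* G'}
    (h : f.ker ⊓ B = ⊥) : clen (B.map f) = clen B := by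
  rw [clen_eq_add B f, h, clen_bot, zero_add]

theorem clen_map_of_injective [Finite G] [Finite G'] (B : Subgroup G) {f : G →* G'}
    (h : Function.Injective f) : clen (B.map f) = clen B :=
  clen_map_of_inf (by rw [(MonoidHom.ker_eq_bot_iff f).mpr h, bot_inf_eq])

theorem clen_top_coe [Finite G] (B : Subgroup G) : clen (⊤ : Subgroup B) = clen B := by
  rw [← clen_map_of_injective ⊤ B.subtype_injective, ← MonoidHom.range_eq_map, range_subtype]

theorem clen_subgroupOf [Finite G] {A B : Subgroup G} (h : A ≤ B) :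
    clen (A.subgroupOf B) = clen A := by
  rw [← clen_map_of_injective _ B.subtype_injective, subgroupOf_map_subtype, inf_eq_left.mpr h]

theorem clen_sup_le [Finite G] {A T : Subgroup G} (h : T ≤ normalizer (A : Set G)) :
    clen (A ⊔ T) ≤ clen A + clen T := by
  have hn : (A.subgroupOf (A ⊔ T)).Normal :=
    (normal_subgroupOf_iff_le_normalizer le_sup_left).mpr (sup_le le_normalizer h)
  rw [← clen_top_coe, clen_eq_add ⊤ (QuotientGroup.mk' (A.subgroupOf (A ⊔ T))),
    QuotientGroup.ker_mk', inf_top_eq, clen_subgroupOf le_sup_left,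
    ← clen_subgroupOf (le_sup_right : T ≤ A ⊔ T),
    clen_eq_add (T.subgroupOf _) (QuotientGroup.mk' (A.subgroupOf (A ⊔ T)))]
  have : (⊤ : Subgroup (A ⊔ T : Subgroup G)).map (QuotientGroup.mk' (A.subgroupOf (A ⊔ T))) =
      (T.subgroupOf _).map (QuotientGroup.mk' (A.subgroupOf (A ⊔ T))) := by
    rw [← subgroupOf_self, subgroupOf_sup le_sup_left le_sup_right, Subgroup.map_sup,
      QuotientGroup.map_mk'_self, bot_sup_eq]
  rw [this]
  omega

theorem clen_le_one [Finite G] {T : Subgroup G}
    (h : ∀ S ≤ T, T ≤ normalizer (S : Set G) → S = ⊥ ∨ S = T) : clen T ≤ 1 := by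
  have : ∀ l, Ch T l → l ≤ 1 := by
    intro l hl
    cases hl with
    | bot => exact Nat.zero_le _
    | step h1 h2 h3 =>
      rcases h _ h2.le h3 with e | e
      · have := h1.le_clen
        rw [e, clen_bot] at this
        omega
      · exact absurd e h2.ne
  exact this _ (ch_clen T)

theorem ch_of_fin {l : ℕ} (H : Fin (l + 1) → Subgroup G) (h0 : H 0 = ⊥)
    (hc : ∀ i : Fin l, H i.castSucc < H i.succ ∧ ((H i.castSucc).subgroupOf (H i.succ)).Normal)
    (i : Fin (l + 1)) : Ch (H i) i := by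
  induction i using Fin.induction with
  | zero => exact h0 ▸ Ch.bot
  | succ i ih => exact ih.step (hc i).1 ((normal_subgroupOf_iff_le_normalizer (hc i).1.le).mp (hc i).2)

theorem relIndex_centralizer_le [Finite G] {K N : Subgroup G} (h : K ≤ normalizer (N : Set G))
    {x : G} (hx : x ∈ N) (h1 : x ≠ 1) :
    (centralizer ({x} : Set G)).relIndex K ≤ Nat.card N - 1 := by
  let _ : MulAction K G := MulAction.compHom G ((MulAut.conj : G →* MulAut G).comp K.subtype)
  have e : MulAction.stabilizer K x = (centralizer ({x} : Set G)).subgroupOf K := by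
    ext k
    rw [MulAction.mem_stabilizer_iff, mem_subgroupOf, mem_centralizer_singleton_iff]
    change (k : G) * x * (k : G)⁻¹ = x ↔ _
    exact mul_inv_eq_iff_eq_mul
  have e2 : Nat.card N = (N : Set G).ncard := Nat.card_coe_set_eq (N : Set G)
  rw [relIndex, ← e, MulAction.index_stabilizer, e2,
    ← Set.ncard_sdiff_singleton_of_mem (show (1 : G) ∈ (N : Set G) from N.one_mem)]
  refine Set.ncard_le_ncard ?_
  rintro _ ⟨k, rfl⟩
  exact ⟨conj_mem_of_mem_normalizer (h k.2) hx, fun e => h1 (conj_eq_one_iff.mp e)⟩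

theorem cardFactors_aut_le [Finite G] {p : ℕ} [hp : Fact p.Prime] {H N : Subgroup G}
    (h : H ≤ normalizer (N : Set G)) (hf : H ⊓ centralizer (N : Set G) = ⊥) (hN : IsPGroup p N)
    {L : ℕ} (hL : Nat.card N - 1 < 2 ^ (L + 1)) (j : ℕ) :
    ∀ F ≤ N, Nat.card N ≤ p ^ j * Nat.card F →
      Ω (Nat.card (H ⊓ centralizer (F : Set G) : Subgroup G)) ≤ L * j := by
  induction j with
  | zero =>
    intro F hF hc
    rw [eq_of_le_of_card_ge hF (by simpa using hc), hf]
    simp
  | succ j ih =>
    intro F hF hc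
    rcases hF.lt_or_eq with h1 | h1
    · obtain ⟨x, hx, hxF⟩ := SetLike.exists_of_lt h1
      have h2 : F < F ⊔ zpowers x :=
        lt_of_le_of_ne le_sup_left fun e => hxF (e ▸ mem_sup_right (mem_zpowers x))
      have h3 : F ⊔ zpowers x ≤ N := sup_le hF (zpowers_le.mpr hx)
      have h4 : p * Nat.card F ≤ Nat.card (F ⊔ zpowers x : Subgroup G) := by
        obtain ⟨a, ha⟩ := IsPGroup.iff_card.mp (hN.to_le hF)
        obtain ⟨b, hb⟩ := IsPGroup.iff_card.mp (hN.to_le h3)
        have h5 := H1.card_lt_of_lt h2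
        rw [ha, hb] at *
        rw [← pow_succ']
        exact Nat.pow_le_pow_right hp.out.pos ((Nat.pow_lt_pow_iff_right hp.out.one_lt).mp h5)
      have h5 := ih _ h3 (hc.trans (by rw [pow_succ, mul_assoc]; exact Nat.mul_le_mul_left _ h4))
      have h6 : H ⊓ centralizer ((F ⊔ zpowers x : Subgroup G) : Set G) =
          centralizer ({x} : Set G) ⊓ (H ⊓ centralizer (F : Set G)) := by
        refine le_antisymm (le_inf (inf_le_right.trans (centralizer_le
          (Set.singleton_subset_iff.mpr (mem_sup_right (mem_zpowers x))))) (inf_le_inf_left _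
            (centralizer_le (SetLike.coe_subset_coe.mpr le_sup_left)))) (le_inf
              (inf_le_right.trans inf_le_left) ?_)
        rw [le_centralizer_iff]
        refine sup_le (le_centralizer_iff.mp (inf_le_right.trans inf_le_right))
          (zpowers_le.mpr fun g hg => mem_centralizer_singleton_iff.mp hg.1)
      have h7 := relIndex_centralizer_le (K := H ⊓ centralizer (F : Set G))
        (inf_le_left.trans h) hx fun e => hxF (e ▸ one_mem _)
      have h8 : Ω ((centralizer ({x} : Set G)).relIndex (H ⊓ centralizer (F : Set G))) < L + 1 :=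
        (Nat.pow_lt_pow_iff_right one_lt_two).mp
          ((two_pow_cardFactors_le index_ne_zero_of_finite).trans_lt (h7.trans_lt hL))
      rw [← H1.card_inf_mul_relIndex (centralizer ({x} : Set G)),
        ArithmeticFunction.cardFactors_mul Nat.card_pos.ne' (relIndex_ne_zero' _ _), ← h6,
        Nat.mul_succ]
      omega
    · rw [h1, hf]; simp

end H57.CL
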