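import Mathlib
import Cfsg.Agent.Lib.CompLen.Basic
import Cfsg.Agent.Lib.Core.MinNormal
import Cfsg.Agent.Lib.ONS.Prim

/-! # The composition length of a permutation group (helper57) -/

set_option autoImplicit false

namespace H57.CL
open Subgroup MulAction H74.ONS

def Claim (n : ℕ) : Prop :=
  ∀ (G Ω ι : Type) [Group G] [Finite G] [MulAction G Ω] [Finite Ω] [FaithfulSMul G Ω]
    (π : Ω → ι), Function.Surjective π → (∀ (g : G) (x : Ω), π (g • x) = π x) → Nat.card Ω = n →
      3 * clen (⊤ : Subgroup G) + 4 * Nat.card ι ≤ 4 * n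

theorem Claim.hom {n : ℕ} (h : Claim n) {G : Type*} {Ω ι : Type} [Group G] [Finite G] [Finite Ω]
    (φ : G →* Equiv.Perm Ω) (π : Ω → ι) (hs : Function.Surjective π)
    (hπ : ∀ (g : G) (x : Ω), π (φ g x) = π x) (hn : Nat.card Ω = n) :
    3 * clen (⊤ : Subgroup G) + 4 * Nat.card ι ≤ 3 * clen φ.ker + 4 * n := by
  have := h φ.range Ω ι π hs (by rintro ⟨_, g, rfl⟩ x; exact hπ g x) hn
  rw [clen_top_coe, MonoidHom.range_eq_map] at this
  rw [clen_eq_add ⊤ φ, inf_top_eq]
  omega

theorem Claim.hom1 {n : ℕ} (h : Claim n) {G : Type*} {Ω : Type} [Group G] [Finite G] [Finite Ω]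
    [Nonempty Ω] (φ : G →* Equiv.Perm Ω) (hn : Nat.card Ω = n) :
    3 * clen (⊤ : Subgroup G) + 4 ≤ 3 * clen φ.ker + 4 * n := by
  have := h.hom φ (fun _ => ()) (fun _ => ⟨Classical.arbitrary Ω, rfl⟩) (fun _ _ => rfl) hn
  simpa using this

section
variable {n : ℕ} (ih : ∀ m < n, Claim m) {G Ω : Type} [Group G] [Finite G] [MulAction G Ω]
  [Finite Ω] [FaithfulSMul G Ω] (hn : Nat.card Ω = n)
include ih hn

theorem intrans {ι : Type} [Nontrivial ι] (π : Ω → ι) (hs : Function.Surjective π)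
    (hπ : ∀ (g : G) (x : Ω), π (g • x) = π x) :
    3 * clen (⊤ : Subgroup G) + 4 * Nat.card ι ≤ 4 * n := by
  classical
  have : Finite ι := Finite.of_surjective π hs
  obtain ⟨i, j, hij⟩ := exists_pair_ne ι
  let S₁ : SubMulAction G Ω := ⟨{x | π x = i}, fun g x hx => (hπ g x).trans hx⟩
  let S₂ : SubMulAction G Ω := ⟨{x | π x ≠ i}, fun g x hx => (hπ g x).trans_ne hx⟩
  have e1 : Nat.card S₁ + Nat.card S₂ = n := by
    rw [← hn, ← Nat.card_sum]
    exact Nat.card_congr (Equiv.sumCompl fun x => π x = i)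
  have e2 : 1 + Nat.card {k // k ≠ i} = Nat.card ι := by
    rw [← Nat.card_unique (α := {k // k = i}), ← Nat.card_sum]
    exact Nat.card_congr (Equiv.sumCompl fun k => k = i)
  have n1 : Nonempty S₁ := by obtain ⟨x, hx⟩ := hs i; exact ⟨⟨x, hx⟩⟩
  have n2 : Nonempty S₂ := by obtain ⟨x, hx⟩ := hs j; exact ⟨⟨x, hx.trans_ne hij.symm⟩⟩
  have p1 : 0 < Nat.card S₁ := Nat.card_pos
  have p2 : 0 < Nat.card S₂ := Nat.card_pos
  have h1 := (ih _ (by omega)).hom1 (toPermHom G S₁) rfl
  have hf : FaithfulSMul (toPermHom G S₁).ker S₂ := ⟨fun {a b} h => Subtype.ext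
    (eq_of_smul_eq_smul fun x : Ω => by
      by_cases hx : π x = i
      · have ha := congrArg Subtype.val (Equiv.ext_iff.mp (MonoidHom.mem_ker.mp a.2) ⟨x, hx⟩)
        have hb := congrArg Subtype.val (Equiv.ext_iff.mp (MonoidHom.mem_ker.mp b.2) ⟨x, hx⟩)
        exact ha.trans hb.symm
      · exact congrArg Subtype.val (h ⟨x, hx⟩))⟩
  have h2 := ih _ (by omega) (toPermHom G S₁).ker S₂ {k // k ≠ i} (fun x => ⟨π x, x.2⟩)
    (fun k => by obtain ⟨x, hx⟩ := hs k; exact ⟨⟨x, hx.trans_ne k.2⟩, Subtype.ext hx⟩)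
    (fun g x => Subtype.ext (hπ g x)) rfl
  rw [clen_top_coe] at h2
  omega

theorem imprim [IsPretransitive G Ω] (a : Ω) {M : Subgroup G} (h1 : stabilizer G a < M)
    (h2 : M ≠ ⊤) : 3 * clen (⊤ : Subgroup G) + 4 ≤ 4 * n := by
  have e1 : (stabilizer G a).index = n := by rw [index_stabilizer_of_transitive, hn]
  have e2 : M.index < n := by
    rw [← e1, ← relIndex_mul_index h1.le]
    exact lt_mul_of_one_lt_left (Nat.pos_of_ne_zero index_ne_zero_of_finite)
      (one_lt_index_of_ne_top fun e => h1.not_ge (subgroupOf_eq_top.mp e))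
  have h3 := (ih _ e2).hom1 (toPermHom G (G ⧸ M)) rfl
  choose s hs using fun x : Ω => exists_smul_eq G a x
  have key : ∀ g : G, (s (g • a) : G ⧸ M) = g := fun g => QuotientGroup.eq.mpr (h1.le (by
    rw [mem_stabilizer_iff, mul_smul, inv_smul_eq_iff, hs]))
  have : Nontrivial (G ⧸ M) := Finite.one_lt_card_iff_nontrivial.mp (one_lt_index_of_ne_top h2)
  have h4 := intrans ih (G := (toPermHom G (G ⧸ M)).ker) hn (fun x => (s x : G ⧸ M))
    (fun q => by obtain ⟨g, rfl⟩ := QuotientGroup.mk_surjective q; exact ⟨g • a, key g⟩)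
    (fun g x => by
      have h5 : (g : G) • x = ((g : G) * s x) • a := by rw [mul_smul, hs]
      change (s ((g : G) • x) : G ⧸ M) = _
      rw [h5, key]
      exact Equiv.ext_iff.mp (MonoidHom.mem_ker.mp g.2) (s x : G ⧸ M))
  rw [clen_top_coe] at h4
  change 3 * _ + 4 * M.index ≤ _ at h4
  omega

theorem of_normal [Nontrivial Ω] (a : Ω) {N : Subgroup G} [N.Normal] (hs : N ⊔ stabilizer G a = ⊤)
    (h : clen N ≤ clen (N ⊓ stabilizer G a) + 1) : 3 * clen (⊤ : Subgroup G) + 4 ≤ 4 * n := by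
  obtain ⟨b, hb⟩ := exists_ne a
  have h1 := intrans ih (G := stabilizer G a) hn (fun x => x = a)
    (fun P => by
      by_cases hP : P
      · exact ⟨a, by simp [hP]⟩
      · exact ⟨b, by simp [hP, hb]⟩)
    (fun g x => propext ⟨fun e => smul_left_cancel g (e.trans g.2.symm), fun e => e ▸ g.2⟩)
  rw [clen_top_coe] at h1
  have h2 := clen_eq_add ⊤ (QuotientGroup.mk' N)
  have h3 := clen_eq_add (stabilizer G a) (QuotientGroup.mk' N)
  rw [QuotientGroup.ker_mk'] at h2 h3
  rw [inf_top_eq] at h2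
  have h4 : (⊤ : Subgroup G).map (QuotientGroup.mk' N) =
      (stabilizer G a).map (QuotientGroup.mk' N) := by
    rw [← hs, Subgroup.map_sup, QuotientGroup.map_mk'_self, bot_sup_eq]
  rw [h4] at h2
  simp only [Nat.card_eq_fintype_card, Fintype.card_prop] at h1
  omega

end

theorem affine_arith {p d L : ℕ} (hp : 2 ≤ p) (hd : 2 ≤ d) (h : 2 ^ L ≤ p ^ d - 1) :
    3 * (d + L * d) + 4 ≤ 4 * p ^ d := by
  have h0 : 0 < p ^ d := pow_pos (by omega) d
  have sq : ∀ m, 4 ≤ m → m * m ≤ 2 ^ m := by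
    intro m hm
    induction m, hm using Nat.le_induction with
    | base => norm_num
    | succ m hm ih => rw [pow_succ]; nlinarith
  rcases hp.eq_or_lt with rfl | hp
  · have h1 : L < d := (Nat.pow_lt_pow_iff_right one_lt_two).mp (by omega)
    have h2 : 3 * (d * d) + 4 ≤ 4 * 2 ^ d := by
      rcases Nat.lt_or_ge d 4 with h3 | h3
      · interval_cases d <;> norm_num
      · have := sq d h3
        nlinarith
    nlinarith
  · have h1 : 3 ^ d ≤ p ^ d := Nat.pow_le_pow_left hp d
    have h2 : ∀ m, 2 ≤ m → m * m * m * 3 ≤ 3 ^ m * 3 := by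
      intro m hm
      induction m, hm using Nat.le_induction with
      | base => norm_num
      | succ m hm ih =>
        rcases hm.eq_or_lt with rfl | hm
        · norm_num
        · rw [pow_succ]; nlinarith
    have h3 := h2 d hd
    by_cases h4 : L + 1 ≤ d * d
    · have : d * (L + 1) ≤ d * (d * d) := Nat.mul_le_mul_left _ h4
      have h5 : 9 ≤ 3 ^ d := Nat.pow_le_pow_right (by norm_num : 0 < 3) hd
      nlinarith
    · have h5 : 4 ≤ L := by nlinarith
      have h6 := sq L h5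
      have h7 : d * d ≤ L := by omega
      have h8 : 2 * d ≤ L := by nlinarith
      have h9 : L * L + 1 ≤ p ^ d := by omega
      nlinarith

theorem log_arith (c : ℕ) : 9 * c ≤ 4 * 2 ^ c + 8 := by
  induction c with
  | zero => norm_num
  | succ c ih =>
    rcases Nat.lt_or_ge c 2 with h | h
    · interval_cases c <;> norm_num
    · have : 2 ^ 2 ≤ 2 ^ c := Nat.pow_le_pow_right two_pos h
      rw [pow_succ]; omega

section
variable {G : Type*} [Group G] [Finite G]

theorem clen_le_of_fac {N T H : Subgroup G} (h : Fac N T) (hs : N ⊔ H = ⊤) (hT : T ⊓ H ≠ ⊥) :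
    clen N ≤ clen (N ⊓ H) := by
  classical
  have key : ∀ s : Finset (Subgroup G), (∀ T' ∈ s, Fac N T') →
      clen (s.sup id) ≤ clen (s.sup fun T' => T' ⊓ H) := by
    intro s
    induction s using Finset.induction_on with
    | empty => intro _; simp
    | insert T' s hT' ih =>
      intro hf
      have h1 := hf T' (Finset.mem_insert_self _ _)
      have h2 := fun X hX => hf X (Finset.mem_insert_of_mem hX)
      have h3 : s.sup id ≤ centralizer (T' : Set G) := Finset.sup_le fun X hX =>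
        h1.le_centralizer (h2 X hX) fun e => hT' (e ▸ hX)
      have h4 : (s.sup fun T' => T' ⊓ H) ≤ s.sup id := Finset.sup_mono_fun fun _ _ => inf_le_left
      have h5 : T' ⊓ H ≠ ⊥ := by
        obtain ⟨k, hk, rfl⟩ := h.exists_cj_eq_of_sup h1 hs
        intro e
        refine hT (eq_bot_iff.mpr fun t ht => ?_)
        have : k * t * k⁻¹ ∈ cj k T ⊓ H :=
          mem_inf.mpr ⟨conj_mem_cj k ht.1, mul_mem (mul_mem hk ht.2) (inv_mem hk)⟩
        rw [e, mem_bot] at this
        exact conj_eq_one_iff.mp this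
      rw [Finset.sup_insert, Finset.sup_insert, id, sup_comm T', sup_comm (T' ⊓ H)]
      refine (clen_sup_le ((le_centralizer_iff.mp h3).trans (centralizer_le_normalizer _))).trans
        (le_trans ?_ (clen_lt (lt_of_le_of_ne le_sup_left fun e => h5 ?_) (sup_le le_normalizer
          (inf_le_left.trans ((le_centralizer_iff.mp (h4.trans h3)).trans
            (centralizer_le_normalizer _))))))
      · refine Nat.add_le_add (ih h2) (clen_le_one fun S hS hn => h1.eq_bot_or_eq hS
          fun t ht s hs => H68.conj_mem_of_mem_normalizer (hn ht) hs)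
      · exact eq_bot_iff.mpr fun t ht =>
          h1.eq_one_of_centralizer ht.1 (h3 (h4 (e ▸ mem_sup_right ht)))
  let s := (Set.toFinite {T' : Subgroup G | Fac N T'}).toFinset
  have hs' : ∀ T', T' ∈ s ↔ Fac N T' := fun T' => Set.Finite.mem_toFinset _
  have h1 : s.sup id = N := le_antisymm (Finset.sup_le fun X hX => ((hs' X).mp hX).le)
    (h.le_of_forall_cj fun g => Finset.le_sup (f := id) ((hs' _).mpr (h.cj g)))
  refine (h1 ▸ key s fun X => (hs' X).mp).trans (clen_le (Finset.sup_le fun X hX =>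
    inf_le_inf_right _ ((hs' X).mp hX).le) (H68.le_normalizer_of_forall_cj_le fun g hg => ?_))
  rw [H68.cj_le_iff]
  refine Finset.sup_le fun X hX => ?_
  rw [← H68.cj_le_iff]
  refine le_trans (H68.cj_le_iff'.mpr fun x hx => ?_) (Finset.le_sup (f := fun T' => T' ⊓ H) hX)
  exact mem_inf.mpr ⟨((hs' X).mp hX).conj g hg.1 x hx.1,
    mul_mem (mul_mem (mem_inf.mp hg).2 hx.2) (inv_mem (mem_inf.mp hg).2)⟩

omit [Finite G] in
theorem no_three {N T H : Subgroup G} (h : Fac N T) (hH : IsCoatom H) (hs : N ⊔ H = ⊤)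
    (hT : T ⊓ H = ⊥) {T₁ T₂ T₃ : Subgroup G} (h1 : Fac N T₁) (h2 : Fac N T₂) (h3 : Fac N T₃)
    {x y z : G} (hx : x ∈ T₁) (hy : y ∈ T₂) (hz : z ∈ T₃) (hx1 : x ≠ 1) (hxy : x ≠ y) (hxz : x ≠ z)
    (hyz : y ≠ z) (e1 : y⁻¹ * x ∈ H) (e2 : z⁻¹ * x ∈ H) : False := by
  have hb : ∀ {T' : Subgroup G}, Fac N T' → ∀ t ∈ T', t ∈ H → t = 1 := by
    intro T' h' t ht htH
    obtain ⟨k, hk, rfl⟩ := h.exists_cj_eq_of_sup h' hs
    have : k⁻¹ * t * k ∈ T ⊓ H :=
      mem_inf.mpr ⟨mem_cj.mp ht, mul_mem (mul_mem (inv_mem hk) htH) hk⟩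
    rw [hT, mem_bot] at this
    simpa [mul_assoc, inv_mul_eq_one] using this
  have n12 : T₁ ≠ T₂ := by
    rintro rfl
    exact hxy (inv_mul_eq_one.mp (hb h1 _ (mul_mem (inv_mem hy) hx) e1)).symm
  have n13 : T₁ ≠ T₃ := by
    rintro rfl
    exact hxz (inv_mul_eq_one.mp (hb h1 _ (mul_mem (inv_mem hz) hx) e2)).symm
  have n23 : T₂ ≠ T₃ := by
    rintro rfl
    have : z⁻¹ * y ∈ H := by
      have := mul_mem e2 (inv_mem e1)
      rwa [show z⁻¹ * x * (y⁻¹ * x)⁻¹ = z⁻¹ * y by group] at this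
    exact hyz (inv_mul_eq_one.mp (hb h2 _ (mul_mem (inv_mem hz) hy) this)).symm
  rcases h1.pType_or_sType hH with hP | hS
  · refine hx1 (hb h1 x hx (hP x hx y⁻¹ (h2.le (inv_mem hy))
      (h1.le_centralizer h2 n12 (inv_mem hy)) ?_))
    rwa [h1.commute h2 n12 hx (inv_mem hy)]
  · have key : ∀ s ∈ T₁, x * (s * x * s⁻¹) = (s * x * s⁻¹) * x := by
      intro s hs
      obtain ⟨c, hcN, hc, hsc⟩ := hS s hs
      set z' := (s * c) * z⁻¹ * (s * c)⁻¹
      set x' := s * x * s⁻¹
      have hz' : z' ∈ T₃ := h3.conj _ (mul_mem (h1.le hs) hcN) _ (inv_mem hz)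
      have hx' : x' ∈ T₁ := mul_mem (mul_mem hs hx) (inv_mem hs)
      have e3 : z' * x' ∈ H := by
        have h4 := mul_mem (mul_mem hsc e2) (inv_mem hsc)
        have h5 : c * x = x * c := (hc x hx).symm
        have h6 : s * c * (z⁻¹ * x) * (s * c)⁻¹ = z' * (s * (c * x) * c⁻¹ * s⁻¹) := by
          simp only [z']; group
        rw [h6, h5] at h4
        simpa [x', mul_assoc] using h4
      have c1 : Commute x y⁻¹ := h1.commute h2 n12 hx (inv_mem hy)
      have c2 : Commute x' y⁻¹ := h1.commute h2 n12 hx' (inv_mem hy)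
      have c3 : Commute x z' := h1.commute h3 n13 hx hz'
      have c4 : Commute x' z' := h1.commute h3 n13 hx' hz'
      have c5 : Commute y⁻¹ z' := h2.commute h3 n23 (inv_mem hy) hz'
      clear_value z' x'
      have e4 : (z' * x' * (y⁻¹ * x))⁻¹ * (y⁻¹ * x * (z' * x')) = (x' * x)⁻¹ * (x * x') := by
        have a1 : z' * x' * (y⁻¹ * x) = y⁻¹ * z' * (x' * x) := by
          rw [c5.eq, mul_assoc, mul_assoc, ← mul_assoc x', c2.eq, mul_assoc]
        have a2 : y⁻¹ * x * (z' * x') = y⁻¹ * z' * (x * x') := by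
          rw [mul_assoc, mul_assoc, ← mul_assoc x, c3.eq, mul_assoc]
        rw [a1, a2]; group
      have e5 := mul_mem (inv_mem (mul_mem e3 e1)) (mul_mem e1 e3)
      rw [e4] at e5
      exact (inv_mul_eq_one.mp (hb h1 _ (mul_mem (inv_mem (mul_mem hx' hx)) (mul_mem hx hx'))
        e5)).symm
    let S : Subgroup G := T₁ ⊓ ⨅ s : T₁, centralizer {(s : G) * x * (s : G)⁻¹}
    rcases h1.eq_bot_or_eq (S := S) inf_le_left (fun t ht u hu => mem_inf.mpr
      ⟨mul_mem (mul_mem ht hu.1) (inv_mem ht), mem_iInf.mpr fun s => by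
        have := mem_centralizer_singleton_iff.mp
          (mem_iInf.mp hu.2 ⟨t⁻¹ * s, mul_mem (inv_mem ht) s.2⟩)
        rw [mem_centralizer_singleton_iff]
        calc t * u * t⁻¹ * (s * x * (s : G)⁻¹) = t * (u * (t⁻¹ * s * x * (t⁻¹ * s)⁻¹)) * t⁻¹ := by
              group
          _ = _ := by rw [this]; group⟩) with e | e
    · exact hx1 (mem_bot.mp (e ▸ (⟨hx, mem_iInf.mpr fun s =>
        mem_centralizer_singleton_iff.mpr (key s s.2)⟩ : x ∈ S)))
    · refine hx1 (h1.eq_one_of_centralizer hx fun t ht => ?_)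
      have := mem_centralizer_singleton_iff.mp (mem_iInf.mp (e.ge ht).2 1)
      simpa using this

end

section
variable {n : ℕ} (ih : ∀ m < n, Claim m) {G Ω : Type} [Group G] [Finite G] [MulAction G Ω]
  [Finite Ω] [FaithfulSMul G Ω] (hn : Nat.card Ω = n)
include ih hn

theorem prim [Nontrivial Ω] [ht : IsPretransitive G Ω] (a : Ω) (hH : IsCoatom (stabilizer G a)) :
    3 * clen (⊤ : Subgroup G) + 4 ≤ 4 * n := by
  classical
  have := nontrivial_of_isPretransitive (G := G) (Ω := Ω)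
  obtain ⟨N, hN⟩ := H3.exists_isMinNormal G
  have := hN.normal
  set H := stabilizer G a
  have hs : N ⊔ H = ⊤ := sup_eq_top_of_isCoatom hH (not_le_stabilizer ht hN.normal hN.ne_bot a)
  have hNt : IsPretransitive N Ω := ⟨fun x y => by
    have : ∀ x : Ω, ∃ m : N, m • a = x := fun x => by
      obtain ⟨g, rfl⟩ := exists_smul_eq G a x
      obtain ⟨m, hm, k, hk, rfl⟩ := exists_mul_of_sup_eq_top hN.normal hs g
      exact ⟨⟨m, hm⟩, by rw [mul_smul, mem_stabilizer_iff.mp hk]; rfl⟩
    obtain ⟨m, rfl⟩ := this x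
    obtain ⟨m', rfl⟩ := this y
    exact ⟨m' * m⁻¹, by rw [mul_smul, inv_smul_smul]⟩⟩
  have hC : H ⊓ centralizer (N : Set G) = ⊥ :=
    eq_bot_iff.mpr fun c hc => eq_one_of_centralizer_of_fix hNt hc.2 hc.1
  have e1 : H.index = n := by rw [index_stabilizer_of_transitive, hn]
  have hsemi : ∀ K : Subgroup G, K ≤ centralizer (N : Set G) → Nat.card K ≤ n := by
    intro K hK
    have h1 := H1.card_inf_mul_relIndex H K
    rw [eq_bot_iff.mpr ((inf_le_inf_left H hK).trans hC.le), card_bot, one_mul] at h1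
    rw [← h1, ← e1, ← relIndex_top_right]
    exact relIndex_le_of_le_right le_top (relIndex_ne_zero' _ _)
  by_cases hab : IsMulCommutative N
  · obtain ⟨p, hp, -, h1⟩ := hN.exists_prime_pow_eq_one
    have : Fact p.Prime := ⟨hp⟩
    have hNp := H3.isPGroup_of_pow_eq_one h1
    obtain ⟨d, hd⟩ := IsPGroup.iff_card.mp hNp
    have h2 : clen N ≤ d := by
      have := clen_le_cardFactors N
      rwa [hd, ArithmeticFunction.cardFactors_apply_prime_pow hp] at this
    rcases Nat.lt_or_ge d 2 with h3 | h3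
    · exact of_normal ih hn a hs (by omega)
    have h4 : p ^ d ≤ n := hd ▸ hsemi N (le_centralizer_iff_isMulCommutative.mpr hab)
    have h5 : 1 < p ^ d := Nat.one_lt_pow (by omega) hp.one_lt
    have h6 := cardFactors_aut_le le_normalizer_of_normal hC hNp
      (Nat.lt_pow_succ_log_self one_lt_two (Nat.card N - 1)) d ⊥ bot_le (by simp [hd])
    have h7 : H ⊓ centralizer ((⊥ : Subgroup G) : Set G) = H :=
      inf_eq_left.mpr fun g _ x hx => by rw [mem_bot.mp hx, one_mul, mul_one]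
    rw [h7, hd] at h6
    have h8 := affine_arith hp.two_le h3 (Nat.pow_log_le_self 2 (by omega : p ^ d - 1 ≠ 0))
    have h9 := clen_sup_le (le_normalizer_of_normal : H ≤ normalizer (N : Set G))
    rw [hs] at h9
    have h10 := clen_le_cardFactors H
    omega
  obtain ⟨T, hT⟩ := exists_fac hN.normal hN.eq_bot_or_eq hab
  by_cases hTH : T ⊓ H = ⊥
  swap
  · exact of_normal ih hn a hs ((clen_le_of_fac hT hs hTH).trans (Nat.le_succ _))
  have := Fintype.ofFinite G
  have := Fintype.ofFinite Ω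
  let Y : Finset G := Finset.univ.filter fun x => x ≠ 1 ∧ ∃ T', Fac N T' ∧ x ∈ T'
  have hY : Y.card ≤ 2 * (n - 1) := by
    have h1 : (Finset.univ.erase a).card = n - 1 := by
      rw [Finset.card_erase_of_mem (Finset.mem_univ a), Finset.card_univ, ← hn,
        Nat.card_eq_fintype_card]
    rw [← h1]
    refine Finset.card_le_mul_card_image_of_maps_to (f := fun x => x • a) (fun x hx => ?_) 2
      fun b _ => ?_
    · obtain ⟨h2, T', h3, h4⟩ := (Finset.mem_filter.mp hx).2
      refine Finset.mem_erase.mpr ⟨fun e => h2 ?_, Finset.mem_univ _⟩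
      obtain ⟨k, hk, rfl⟩ := hT.exists_cj_eq_of_sup h3 hs
      have : k⁻¹ * x * k ∈ T ⊓ H :=
        mem_inf.mpr ⟨mem_cj.mp h4, mul_mem (mul_mem (inv_mem hk) e) hk⟩
      rw [hTH, mem_bot] at this
      simpa [mul_assoc, inv_mul_eq_one] using this
    · by_contra hlt
      obtain ⟨x, y, z, hx, hy, hz, h2, h3, h4⟩ := Finset.two_lt_card_iff.mp (not_le.mp hlt)
      simp only [Y, Finset.mem_filter, Finset.mem_univ, true_and] at hx hy hz
      obtain ⟨⟨x1, T₁, x2, x3⟩, x4⟩ := hx
      obtain ⟨⟨-, T₂, y2, y3⟩, y4⟩ := hy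
      obtain ⟨⟨-, T₃, z2, z3⟩, z4⟩ := hz
      exact no_three hT hH hs hTH x2 y2 z2 x3 y3 z3 x1 h2 h3 h4
        (by rw [mem_stabilizer_iff, mul_smul, x4, inv_smul_eq_iff, y4])
        (by rw [mem_stabilizer_iff, mul_smul, x4, inv_smul_eq_iff, z4])
  obtain ⟨u, hu, hu1, hu2⟩ : ∃ u ∈ T, u ≠ 1 ∧
      3 * (Y.filter fun x => orderOf x = orderOf u).card ≤ Y.card := by
    obtain ⟨u, hu, v, hv, w, hw, p1, p2, p3, d1, d2, d3⟩ := hT.exists_three_primes
    have ne1 : ∀ x : G, (orderOf x).Prime → x ≠ 1 := fun x hx e =>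
      hx.one_lt.ne' (by rw [e, orderOf_one])
    by_contra hne
    push Not at hne
    have h1 := hne u hu (ne1 u p1)
    have h2 := hne v hv (ne1 v p2)
    have h3 := hne w hw (ne1 w p3)
    have h4 : ((Y.filter fun x => orderOf x = orderOf u) ∪ (Y.filter fun x => orderOf x = orderOf v)
        ∪ (Y.filter fun x => orderOf x = orderOf w)).card ≤ Y.card :=
      Finset.card_le_card (Finset.union_subset (Finset.union_subset (Finset.filter_subset _ _)
        (Finset.filter_subset _ _)) (Finset.filter_subset _ _))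
    rw [Finset.card_union_of_disjoint, Finset.card_union_of_disjoint] at h4
    · omega
    · exact Finset.disjoint_filter.mpr fun x _ e e' => d1 (e.symm.trans e')
    · exact Finset.disjoint_union_left.mpr ⟨Finset.disjoint_filter.mpr fun x _ e e' =>
        d2 (e.symm.trans e'), Finset.disjoint_filter.mpr fun x _ e e' => d3 (e.symm.trans e')⟩
  let X : SubMulAction (ConjAct G) G := ⟨(Y.filter fun x => orderOf x = orderOf u : Finset G),
    fun g x hx => by
      simp only [Y, Finset.coe_filter, Finset.mem_filter, Finset.mem_univ, true_and,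
        Set.mem_ofPred_eq, ConjAct.smul_def] at hx ⊢
      obtain ⟨⟨h1, T', h2, h3⟩, h4⟩ := hx
      exact ⟨⟨fun e => h1 (conj_eq_one_iff.mp e), _, h2.cj _, conj_mem_cj _ h3⟩,
        ((MulAut.conj _).orderOf_eq x).trans h4⟩⟩
  have huX : u ∈ X := by
    change u ∈ (Y.filter fun x => orderOf x = orderOf u : Finset G)
    simp only [Y, Finset.mem_filter, Finset.mem_univ, true_and]
    exact ⟨⟨hu1, T, hT, hu⟩, trivial⟩
  have : Nonempty X := ⟨⟨u, huX⟩⟩
  have cX : Nat.card X = (Y.filter fun x => orderOf x = orderOf u).card :=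
    Nat.card_eq_finsetCard _
  have h0 : 1 < n := hn ▸ Finite.one_lt_card
  let φ := (toPermHom (ConjAct G) X).comp ConjAct.toConjAct.toMonoidHom
  have h1 := (ih _ (by omega)).hom1 φ rfl
  have h2 : φ.ker ≤ centralizer (N : Set G) := by
    rw [le_centralizer_iff]
    have h3 := (hN.inf_eq_bot_or_le (centralizer (φ.ker : Set G))).resolve_left fun e => hu1 ?_
    · exact h3
    · refine mem_bot.mp (e ▸ (⟨hT.le hu, fun k hk => ?_⟩ : u ∈ N ⊓ centralizer (φ.ker : Set G)))
      have := congrArg Subtype.val (Equiv.ext_iff.mp (MonoidHom.mem_ker.mp hk) ⟨u, huX⟩)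
      exact mul_inv_eq_iff_eq_mul.mp this
  have h3 := (two_pow_clen_le φ.ker).trans (hsemi _ h2)
  have h4 := log_arith (clen φ.ker)
  omega

end

theorem claim (n : ℕ) : Claim n := by
  induction n using Nat.strong_induction_on with
  | _ n ih =>
  intro G Ω ι _ _ _ _ _ π hs hπ hn
  rcases subsingleton_or_nontrivial ι with hι | hι
  swap
  · exact intrans ih hn π hs hπ
  have hι1 : Nat.card ι ≤ 1 := Finite.card_le_one_iff_subsingleton.mpr hι
  rcases subsingleton_or_nontrivial Ω with hΩ | hΩ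
  · have h1 : (⊤ : Subgroup G) = ⊥ := eq_bot_iff.mpr fun g _ =>
      eq_of_smul_eq_smul (α := Ω) fun x => Subsingleton.elim _ _
    have := Nat.card_le_card_of_surjective π hs
    rw [h1, clen_bot]
    omega
  suffices 3 * clen (⊤ : Subgroup G) + 4 ≤ 4 * n by omega
  obtain ⟨a⟩ : Nonempty Ω := inferInstance
  by_cases ht : IsPretransitive G Ω
  · by_cases hH : IsCoatom (stabilizer G a)
    · exact prim ih hn a hH
    · have h1 : stabilizer G a ≠ ⊤ := fun e => by
        obtain ⟨b, hb⟩ := exists_ne a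
        obtain ⟨g, rfl⟩ := exists_smul_eq G a b
        exact hb (e ▸ mem_top g : g ∈ stabilizer G a)
      simp only [IsCoatom, not_and, not_forall] at hH
      obtain ⟨M, h2, h3⟩ := hH h1
      exact imprim ih hn a h2 h3
  · have : Nontrivial (Quotient (orbitRel G Ω)) := by
      by_contra h
      rw [not_nontrivial_iff_subsingleton] at h
      exact ht ((pretransitive_iff_subsingleton_quotient G Ω).mpr h)
    have h1 := intrans ih hn (Quotient.mk (orbitRel G Ω)) Quotient.mk_surjective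
      fun g x => Quotient.sound (mem_orbit x g)
    have h2 : 1 < Nat.card (Quotient (orbitRel G Ω)) := Finite.one_lt_card
    omega

theorem main {G Ω : Type*} [Group G] [Finite G] [MulAction G Ω] [FaithfulSMul G Ω] [Finite Ω] :
    3 * clen (⊤ : Subgroup G) + 4 * Nat.card (Quotient (orbitRel G Ω)) ≤ 4 * Nat.card Ω := by
  let e := Finite.equivFin Ω
  let e' := Finite.equivFin (Quotient (orbitRel G Ω))
  let φ : G →* Equiv.Perm (Fin (Nat.card Ω)) := e.permCongrHom.toMonoidHom.comp (toPermHom G Ω)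
  have h1 := (claim _).hom φ (fun x => e' (Quotient.mk _ (e.symm x)))
    (e'.surjective.comp (Quotient.mk_surjective.comp e.symm.surjective))
    (fun g x => congrArg e' (Quotient.sound ⟨g, by simp [φ]⟩)) (Nat.card_fin _)
  rw [(MonoidHom.ker_eq_bot_iff φ).mpr (e.permCongrHom.injective.comp toPerm_injective),
    clen_bot, Nat.card_fin] at h1
  omega

end H57.CL
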